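import Mathlib
import Cfsg.Agent.H364.Core
import Cfsg.Agent.H363.Frat
import Cfsg.Agent.S0033
import Cfsg.Agent.S0044
import Cfsg.Agent.S0008
import Cfsg.Agent.Lib.Cores
import Cfsg.Agent.Lib.NilpotentCoprime

/-!
# The normal subgroups of order prime to a perfect prime (helper429, S3677)

`PP G r m` : `r` is a prime divisor of `|G|`, and the centralizers of the elements of order `r` are nilpotent, of order
dividing `m`.
-/

set_option autoImplicit false

namespace Cfsg.Agent.H429.CS

open Subgroup Cfsg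

universe u

/-- `r` is a perfect prime for `G` -/
structure PP (G : Type u) [Group G] (r m : ℕ) : Prop where
  prime : r.Prime
  dvd : r ∣ Nat.card G
  cent : ∀ y : G, orderOf y = r → Nat.card (centralizer ({y} : Set G)) ∣ m
  nil : ∀ y : G, orderOf y = r → Group.IsNilpotent (centralizer ({y} : Set G))

variable {G : Type u} [Group G] [Finite G] {r m : ℕ}

omit [Finite G] in
theorem centralizer_zpowers (y : G) : centralizer (zpowers y : Set G) = centralizer ({y} : Set G) := by
  apply le_antisymm
  · exact centralizer_le (by simp)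
  · intro x hx
    rw [mem_centralizer_iff]
    rintro _ ⟨k, rfl⟩
    have h1 : Commute y x := mem_centralizer_iff.1 hx y rfl
    exact (h1.zpow_left k).eq

/-- a nontrivial normal `l`-subgroup contains a class -/
theorem index_lt_of_normal (N : Subgroup G) [N.Normal] {x : G} (hx : x ∈ N) :
    (centralizer ({x} : Set G)).index < Nat.card N ∨ x = 1 := by
  by_cases h1 : x = 1
  · exact Or.inr h1
  left
  let f : G ⧸ centralizer ({x} : Set G) → {n : N // n ≠ 1} := fun c =>
    ⟨⟨c.out * x * c.out⁻¹, (inferInstance : N.Normal).conj_mem x hx _⟩, fun h => h1 (by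
      have h2 : c.out * x * c.out⁻¹ = 1 := congrArg Subtype.val h
      have h3 : c.out * x = c.out := by
        have := mul_inv_eq_iff_eq_mul.1 h2
        rwa [one_mul] at this
      exact mul_eq_left.1 h3)⟩
  have hf : Function.Injective f := by
    intro c d hcd
    have h2 : c.out * x * c.out⁻¹ = d.out * x * d.out⁻¹ := congrArg (fun z => ((z : {n : N // n ≠ 1}).1 : G)) hcd
    rw [← Quotient.out_eq' c, ← Quotient.out_eq' d]
    apply Quotient.sound'
    rw [QuotientGroup.leftRel_apply, mem_centralizer_singleton_iff]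
    have h3 : c.out * x = d.out * x * d.out⁻¹ * c.out := mul_inv_eq_iff_eq_mul.1 h2
    have h4 : d.out⁻¹ * (c.out * x) = x * (d.out⁻¹ * c.out) := by rw [h3]; group
    have h5 : (c.out⁻¹ * d.out)⁻¹ * x = x * (c.out⁻¹ * d.out)⁻¹ := by
      rw [mul_inv_rev, inv_inv, mul_assoc, h4]
    have h6 : Commute (c.out⁻¹ * d.out)⁻¹ x := h5
    exact (Commute.inv_left_iff.1 h6).eq
  have h2 : Nat.card (G ⧸ centralizer ({x} : Set G)) ≤ Nat.card {n : N // n ≠ 1} := Nat.card_le_card_of_injective f hf
  have h3 : Nat.card {n : N // n ≠ 1} = Nat.card N - 1 := by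
    classical
    have := Fintype.ofFinite N
    rw [Nat.card_eq_fintype_card, Fintype.card_subtype_compl, Fintype.card_subtype_eq, Nat.card_eq_fintype_card]
  have h4 : 0 < Nat.card N := Nat.card_pos
  rw [Subgroup.index_eq_card]
  omega

/-- `O_l(G) = 1` if the `l`-part is at most the smallest class size -/
theorem eq_bot_of_le {l μ : ℕ} (hl : l.Prime) (hμ : ∀ x : G, x ≠ 1 → μ ≤ (centralizer ({x} : Set G)).index)
    (h : l ^ (Nat.card G).factorization l ≤ μ) (N : Subgroup G) (hN : N.Normal) (hp : IsPGroup l N) : N = ⊥ := by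
  by_contra hne
  obtain ⟨x, hx, hx1⟩ := N.bot_or_exists_ne_one.resolve_left hne
  have := Fact.mk hl
  have h1 := (index_lt_of_normal N hx).resolve_right hx1
  obtain ⟨k, hk⟩ := IsPGroup.iff_card.1 hp
  have h2 : k ≤ (Nat.card G).factorization l := by
    rw [← hl.pow_dvd_iff_le_factorization Nat.card_pos.ne', ← hk]
    exact Subgroup.card_subgroup_dvd_card N
  have h3 : Nat.card N ≤ l ^ (Nat.card G).factorization l := by
    rw [hk]; exact Nat.pow_le_pow_right hl.pos h2
  have h4 := hμ x hx1
  omega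

/-- **Fixed point free action**: a normal `l`-subgroup and a `t`-subgroup normalized by an element of order `r` commute. -/
theorem PP.commute (h : PP G r m) {l t : ℕ} (hl : l.Prime) (ht : t.Prime) (hlt : l ≠ t) (hlm : ¬ l ∣ m) (htm : ¬ t ∣ m)
    (N : Subgroup G) (hN : N.Normal) (hNp : IsPGroup l N) (S : Subgroup G) (hSp : IsPGroup t S) {y : G}
    (hy : orderOf y = r) (hyS : y ∈ normalizer (S : Set G)) : N ≤ centralizer (S : Set G) := by
  have := Fact.mk h.prime
  have := Fact.mk hl
  have := Fact.mk ht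
  obtain ⟨a, ha⟩ := IsPGroup.iff_card.1 hNp
  obtain ⟨b, hb⟩ := IsPGroup.iff_card.1 hSp
  set W : Subgroup G := N ⊔ S with hW
  have hcop : (Nat.card N).Coprime (Nat.card S) := by
    rw [ha, hb]
    exact Nat.Coprime.pow _ _ ((Nat.coprime_primes hl ht).2 hlt)
  have hWc : Nat.card W ∣ Nat.card N * Nat.card S := by
    have h1 : Nat.card (↥(N ⊔ S)) = Nat.card N * N.relIndex S := by
      have h3 := Subgroup.card_mul_index (N.subgroupOf (N ⊔ S))
      have h4 : Nat.card (N.subgroupOf (N ⊔ S)) = Nat.card N :=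
        Nat.card_congr (Subgroup.subgroupOfEquivOfLe le_sup_left).toEquiv
      rw [h4] at h3
      rw [← h3]
      congr 1
      show N.relIndex (N ⊔ S) = _
      rw [sup_comm]
      exact Subgroup.relIndex_sup_right (H := S) (K := N)
    rw [hW, h1]
    exact Nat.mul_dvd_mul_left _ (Subgroup.relIndex_dvd_card N S)
  -- conjugation by `y`
  have hyW : ∀ w, w ∈ W ↔ y * w * y⁻¹ ∈ W := by
    have h1 : y ∈ normalizer (W : Set G) := by
      have h2 : y ∈ normalizer (N : Set G) := by rw [normalizer_eq_top (H := N)]; trivial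
      rw [mem_normalizer_iff] at h2 hyS ⊢
      have key : ∀ z : G, (∀ n, n ∈ N ↔ z * n * z⁻¹ ∈ N) → (∀ n, n ∈ S ↔ z * n * z⁻¹ ∈ S) → ∀ w, w ∈ W → z * w * z⁻¹ ∈ W := by
        intro z hz1 hz2 w hw
        have h3 : W ≤ W.comap (MulAut.conj z).toMonoidHom := by
          rw [hW, sup_le_iff]
          constructor
          · intro n hn
            exact (le_sup_left : N ≤ N ⊔ S) ((hz1 n).1 hn)
          · intro n hn
            exact (le_sup_right : S ≤ N ⊔ S) ((hz2 n).1 hn)
        exact h3 hw
      have inv : ∀ H : Subgroup G, (∀ n, n ∈ H ↔ y * n * y⁻¹ ∈ H) → ∀ n, n ∈ H ↔ y⁻¹ * n * y⁻¹⁻¹ ∈ H := by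
        intro H hH n
        rw [hH (y⁻¹ * n * y⁻¹⁻¹)]
        have : y * (y⁻¹ * n * y⁻¹⁻¹) * y⁻¹ = n := by group
        rw [this]
      intro w
      refine ⟨key y h2 hyS w, fun hw => ?_⟩
      have h4 := key y⁻¹ (inv N h2) (inv S hyS) _ hw
      have : y⁻¹ * (y * w * y⁻¹) * y⁻¹⁻¹ = w := by group
      rwa [this] at h4
    exact mem_normalizer_iff.1 h1
  have hyN : y ∈ normalizer (W : Set G) := mem_normalizer_iff.2 hyW
  let φ : W ≃* W := W.normalizerMonoidHom ⟨y, hyN⟩
  have hφ : ∀ w : W, ((φ w : W) : G) = y * w * y⁻¹ := fun w => rfl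
  have hfix : ∀ w : W, φ w = w → w = 1 := by
    intro w hw
    by_contra hne
    have h1 : y * (w : G) * y⁻¹ = w := by rw [← hφ, hw]
    have h2 : Commute y (w : G) := mul_inv_eq_iff_eq_mul.1 h1
    have h3 : orderOf w ≠ 1 := fun h => hne (orderOf_eq_one_iff.1 h)
    obtain ⟨s, hs, hsd⟩ := Nat.exists_prime_and_dvd h3
    have h4 : s ∣ Nat.card W := hsd.trans (orderOf_dvd_natCard w)
    have h5 : s = l ∨ s = t := by
      rcases (Nat.Prime.dvd_mul hs).1 (h4.trans hWc) with h6 | h6
      · left
        rw [ha] at h6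
        exact (Nat.prime_dvd_prime_iff_eq hs hl).1 (hs.dvd_of_dvd_pow h6)
      · right
        rw [hb] at h6
        exact (Nat.prime_dvd_prime_iff_eq hs ht).1 (hs.dvd_of_dvd_pow h6)
    have h6 : (w : G) ∈ centralizer ({y} : Set G) := by
      rw [mem_centralizer_singleton_iff]; exact h2.symm.eq
    have h7 : s ∣ Nat.card (centralizer ({y} : Set G)) := by
      have h8 : orderOf (⟨(w : G), h6⟩ : centralizer ({y} : Set G)) = orderOf w := by
        rw [Subgroup.orderOf_mk, Subgroup.orderOf_coe]
      have h9 := orderOf_dvd_natCard (⟨(w : G), h6⟩ : centralizer ({y} : Set G))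
      rw [h8] at h9
      exact hsd.trans h9
    have h8 := h7.trans (h.cent y hy)
    rcases h5 with rfl | rfl
    · exact hlm h8
    · exact htm h8
  by_cases hW1 : W = ⊥
  · have hN1 : N = ⊥ := by
      rw [eq_bot_iff, ← hW1]; exact le_sup_left
    rw [hN1]; exact bot_le
  have hr1 : φ ^ r = 1 := by
    have h1 : (⟨y, hyN⟩ : normalizer (W : Set G)) ^ r = 1 := by
      apply Subtype.ext
      show y ^ r = 1
      rw [← hy]; exact pow_orderOf_eq_one y
    have h2 : (W.normalizerMonoidHom ⟨y, hyN⟩) ^ r = 1 := by rw [← map_pow, h1, map_one]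
    exact h2
  have hφ1 : φ ≠ 1 := by
    intro h1
    apply hW1
    rw [eq_bot_iff]
    intro w hw
    have h2 := hfix ⟨w, hw⟩ (by rw [h1]; rfl)
    exact congrArg Subtype.val h2
  have hord : orderOf φ = r := orderOf_eq_prime hr1 hφ1
  have hnil : Group.IsNilpotent W := Cfsg.Agent.S0033.result φ (fun w hw => hfix w hw) r h.prime hord
  exact Cfsg.Agent.Lib.NilpotentCoprime.le_centralizer_of_coprime hnil le_sup_left le_sup_right hcop

/-- a subgroup containing Sylow subgroups for all primes is everything -/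
theorem le_of_parts {F C : Subgroup G} (hCF : C ≤ F)
    (h : ∀ l : ℕ, l.Prime → l ^ (Nat.card F).factorization l ∣ Nat.card C) : F ≤ C := by
  have h1 : Nat.card F ∣ Nat.card C := by
    rw [← Nat.factorization_le_iff_dvd Nat.card_pos.ne' Nat.card_pos.ne']
    intro l
    by_cases hl : l.Prime
    · exact (hl.pow_dvd_iff_le_factorization Nat.card_pos.ne').1 (h l hl)
    · rw [Nat.factorization_eq_zero_of_not_prime _ hl]
      exact Nat.zero_le _
  have h2 : C = F := Subgroup.eq_of_le_of_card_ge hCF (Nat.le_of_dvd Nat.card_pos h1)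
  exact h2.ge

/-- the Sylow subgroups of a normal nilpotent subgroup are normal -/
theorem sylow_normal_of_nilpotent {F : Subgroup G} (hFn : F.Normal) (hF : Group.IsNilpotent F) {l : ℕ} [Fact l.Prime]
    (P : Sylow l F) : ((P : Subgroup F).map F.subtype).Normal := by
  have h0 := (Group.isNilpotent_of_finite_tfae (G := F)).out 0 3
  have h1 : (P : Subgroup F).Normal := h0.1 hF l inferInstance P
  have h2 : (P : Subgroup F).Characteristic := Sylow.characteristic_of_normal P h1
  exact ConjAct.normal_of_characteristic_of_normal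

/-- **A large prime does not divide the order of a normal subgroup of order prime to `r`.** -/
theorem PP.not_dvd' (h : PP G r m) (K : Subgroup G) [K.Normal] (hrK : ¬ r ∣ Nat.card K) (hsol : Group.IsSolvable K)
    {t : ℕ} (ht : t.Prime) (htm : ¬ t ∣ m)
    (hO : ∀ l : ℕ, l.Prime → (l ∣ m ∨ l = t) → ∀ N : Subgroup G, N.Normal → IsPGroup l N → N = ⊥) :
    ¬ t ∣ Nat.card K := by
  intro htK
  have hr := h.prime
  have := Fact.mk hr
  have := Fact.mk ht
  have hidx : r ^ 1 ∣ K.index := by
    rw [pow_one]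
    have h1 : r ∣ Nat.card K * K.index := by rw [Subgroup.card_mul_index]; exact h.dvd
    exact (hr.dvd_mul.1 h1).resolve_left hrK
  obtain ⟨S, Q, hSK, hSp, hScard, hQp, hQd, hQS⟩ := Cfsg.Agent.H363.Frat.exists_normalizing hr ht K hidx
  rw [pow_one] at hQd
  obtain ⟨y0, hy0⟩ := exists_prime_orderOf_dvd_card' r hQd
  have hy : orderOf (y0 : G) = r := by rw [Subgroup.orderOf_coe]; exact hy0
  have hyS : (y0 : G) ∈ normalizer (S : Set G) := hQS y0.2
  set F : Subgroup G := (fittingSubgroup K).map K.subtype with hFdef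
  have hFc : (fittingSubgroup K).Characteristic := Cfsg.Agent.Lib.Cores.fittingSubgroup_characteristic
  have hFn : F.Normal := ConjAct.normal_of_characteristic_of_normal
  have hFnil : Group.IsNilpotent F := by
    have h1 : Group.IsNilpotent (fittingSubgroup K) := Cfsg.Agent.S0008.result
    exact Group.nilpotent_of_mulEquiv ((fittingSubgroup K).equivMapOfInjective K.subtype K.subtype_injective)
  have hsyl : ∀ {l : ℕ} [Fact l.Prime] (P : Sylow l F), (l ∣ m ∨ l = t) → (P : Subgroup F).map F.subtype = ⊥ := by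
    intro l hl P hlm
    exact hO l hl.out hlm _ (sylow_normal_of_nilpotent hFn hFnil P) (P.2.map _)
  have hFS : F ≤ F ⊓ centralizer (S : Set G) := by
    apply le_of_parts inf_le_left
    intro l hl
    have := Fact.mk hl
    obtain ⟨P⟩ : Nonempty (Sylow l F) := inferInstance
    have hPc : Nat.card ((P : Subgroup F).map F.subtype) = l ^ (Nat.card F).factorization l := by
      rw [Subgroup.card_map_of_injective F.subtype_injective]
      exact P.card_eq_multiplicity
    have hPle : (P : Subgroup F).map F.subtype ≤ F ⊓ centralizer (S : Set G) := by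
      refine le_inf (Subgroup.map_subtype_le _) ?_
      by_cases hlm : l ∣ m ∨ l = t
      · rw [hsyl P hlm]; exact bot_le
      · rw [not_or] at hlm
        exact h.commute hl ht hlm.2 hlm.1 htm _ (sylow_normal_of_nilpotent hFn hFnil P) (P.2.map _) S hSp hy hyS
    rw [← hPc]
    exact Subgroup.card_dvd_of_le hPle
  have hSF : S ≤ F := by
    intro s hs
    have h1 : (⟨s, hSK hs⟩ : K) ∈ centralizer (fittingSubgroup K : Set K) := by
      rw [mem_centralizer_iff]
      intro f hf
      apply Subtype.ext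
      have h2 : (f : G) ∈ F := ⟨f, hf, rfl⟩
      have h3 := mem_centralizer_iff.1 (hFS h2).2 s hs
      exact h3.symm
    have h2 := Cfsg.Agent.S0044.result h1
    exact ⟨_, h2, rfl⟩
  have hSb : S = ⊥ := by
    obtain ⟨P, hP⟩ := (hSp.comap_subtype (K := F) : IsPGroup t (S.subgroupOf F)).exists_le_sylow
    have h1 := hsyl P (Or.inr rfl)
    rw [eq_bot_iff, ← h1]
    intro s hs
    exact ⟨⟨s, hSF hs⟩, hP hs, rfl⟩
  rw [hSb, Subgroup.card_bot] at hScard
  have h1 := ht.factorization_pos_of_dvd Nat.card_pos.ne' htK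
  have h2 := Nat.one_lt_pow h1.ne' ht.one_lt
  omega


end Cfsg.Agent.H429.CS
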