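import Mathlib
import Cfsg.Agent.H429.CS.KBase
import Cfsg.Agent.H364.Reduce
import Cfsg.Agent.H363.Master

/-!
# The section of a group with perfect primes (helper429, S3677)

`M` is a number all of whose prime divisors are perfect, `K` the largest normal subgroup of order prime to `M`.  Then `G / K`
has a unique minimal normal subgroup, which is simple.
-/

set_option autoImplicit false

namespace Cfsg.Agent.H429.CS

open Subgroup Cfsg

universe u

variable {G : Type u} [Group G] [Finite G] {r m : ℕ}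

/-- conjugation by `y` on a coset fixed by it -/
theorem exists_fixed_in_coset (K : Subgroup G) [K.Normal] (hr : r.Prime) (hrK : ¬ r ∣ Nat.card K) {y : G} (hy : orderOf y = r)
    {g : G} (hg : (y : G ⧸ K) * (g : G ⧸ K) = (g : G ⧸ K) * (y : G ⧸ K)) :
    ∃ x : G, (x : G ⧸ K) = (g : G ⧸ K) ∧ x ∈ centralizer ({y} : Set G) := by
  have := Fact.mk hr
  let X := {x : G // (x : G ⧸ K) = (g : G ⧸ K)}
  have hcomm : ∀ z : zpowers y, ((z : G) : G ⧸ K) * (g : G ⧸ K) = (g : G ⧸ K) * ((z : G) : G ⧸ K) := by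
    rintro ⟨_, k, rfl⟩
    have h1 : Commute (y : G ⧸ K) (g : G ⧸ K) := hg
    have h2 := (h1.zpow_left k).eq
    exact_mod_cast h2
  let act : MulAction (zpowers y) X :=
    { smul := fun z x => ⟨(z : G) * x.1 * (z : G)⁻¹, by
        have h1 : (((z : G) * x.1 * (z : G)⁻¹ : G) : G ⧸ K) = ((z : G) : G ⧸ K) * (x.1 : G ⧸ K) * ((z : G) : G ⧸ K)⁻¹ := rfl
        rw [h1, x.2, hcomm z, mul_inv_cancel_right]⟩
      one_smul := fun x => Subtype.ext (by
        show ((1 : zpowers y) : G) * x.1 * ((1 : zpowers y) : G)⁻¹ = x.1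
        simp)
      mul_smul := fun a b x => Subtype.ext (by
        show ((a * b : zpowers y) : G) * x.1 * ((a * b : zpowers y) : G)⁻¹ =
          (a : G) * ((b : G) * x.1 * (b : G)⁻¹) * (a : G)⁻¹
        rw [Subgroup.coe_mul]; group) }
  have hcard : Nat.card X = Nat.card K := by
    refine Nat.card_congr ⟨fun x => ⟨g⁻¹ * x.1, QuotientGroup.eq.1 x.2.symm⟩, fun k => ⟨g * k.1, ?_⟩, fun x => ?_, fun k => ?_⟩
    · rw [QuotientGroup.mk_mul, (QuotientGroup.eq_one_iff k.1).2 k.2, mul_one]
    · apply Subtype.ext; show g * (g⁻¹ * x.1) = x.1; group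
    · apply Subtype.ext; show g⁻¹ * (g * k.1) = k.1; group
  have hpg : IsPGroup r (zpowers y) := IsPGroup.of_card (n := 1) (by rw [Nat.card_zpowers, hy, pow_one])
  have hX : Finite X := inferInstance
  obtain ⟨x, hx⟩ := hpg.nonempty_fixed_point_of_prime_not_dvd_card X (by rwa [hcard])
  refine ⟨x.1, x.2, ?_⟩
  have h1 := hx ⟨y, mem_zpowers y⟩
  have h2 : y * x.1 * y⁻¹ = x.1 := congrArg Subtype.val h1
  rw [mem_centralizer_singleton_iff]
  exact (mul_inv_eq_iff_eq_mul.1 h2).symm

/-- the centralizer of `ȳ` is the image of the centralizer of `y` -/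
theorem centralizer_quotient (K : Subgroup G) [K.Normal] (hr : r.Prime) (hrK : ¬ r ∣ Nat.card K) {y : G} (hy : orderOf y = r) :
    centralizer ({(y : G ⧸ K)} : Set (G ⧸ K)) = (centralizer ({y} : Set G)).map (QuotientGroup.mk' K) := by
  apply le_antisymm
  · intro g' hg'
    obtain ⟨g, rfl⟩ := QuotientGroup.mk_surjective g'
    obtain ⟨x, hx, hxc⟩ := exists_fixed_in_coset K hr hrK hy (g := g) (mem_centralizer_singleton_iff.1 hg').symm
    exact ⟨x, hxc, hx⟩
  · rintro _ ⟨x, hx, rfl⟩
    rw [mem_centralizer_singleton_iff]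
    have h1 := mem_centralizer_singleton_iff.1 hx
    show ((x : G) : G ⧸ K) * (y : G ⧸ K) = (y : G ⧸ K) * (x : G ⧸ K)
    rw [← QuotientGroup.mk_mul, h1, QuotientGroup.mk_mul]

/-- the centralizers of the elements of order `r` in the quotient -/
theorem PP.quotient (h : PP G r m) (K : Subgroup G) [K.Normal] (hrK : ¬ r ∣ Nat.card K) : PP (G ⧸ K) r m := by
  have := Fact.mk h.prime
  have key : ∀ z : G ⧸ K, orderOf z = r → ∃ y : G, orderOf y = r ∧ (y : G ⧸ K) = z := by
    intro z hz
    obtain ⟨g, rfl⟩ := QuotientGroup.mk_surjective z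
    -- a power of `g`
    have h1 : r ∣ orderOf g := hz ▸ orderOf_map_dvd (QuotientGroup.mk' K) g
    obtain ⟨a, b, hb, hab⟩ := Nat.exists_eq_pow_mul_and_not_dvd (orderOf_pos g).ne' r h.prime.ne_one
    have ha : a ≠ 0 := by
      rintro rfl
      rw [pow_zero, one_mul] at hab
      exact hb (hab ▸ h1)
    -- `g ^ (b * c)` with `b * c ≡ 1 mod r`
    have hcop : Nat.Coprime b (r ^ a) := (Nat.Coprime.pow_left a ((Nat.Prime.coprime_iff_not_dvd h.prime).2 hb)).symm
    obtain ⟨c, -, hc⟩ := Nat.exists_mul_mod_eq_one_of_coprime hcop (Nat.one_lt_pow ha h.prime.one_lt)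
    refine ⟨g ^ (b * c), ?_, ?_⟩
    · have h2 : (g ^ (b * c)) ^ r ∈ K := by
        rw [← pow_mul]
        have h3 : ((g ^ (b * c * r) : G) : G ⧸ K) = 1 := by
          rw [QuotientGroup.mk_pow, mul_comm, pow_mul, ← hz, pow_orderOf_eq_one, one_pow]
        exact (QuotientGroup.eq_one_iff _).1 h3
      -- its order is a power of `r`
      have h3 : (g ^ (b * c)) ^ (r ^ a) = 1 := by
        rw [← pow_mul, show b * c * r ^ a = (r ^ a * b) * c by ring, pow_mul, ← hab, pow_orderOf_eq_one, one_pow]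
      have h4 : ((g ^ (b * c)) ^ r) ^ (r ^ a) = 1 := by
        rw [← pow_mul, mul_comm r, pow_mul, h3, one_pow]
      have h5 : orderOf ((g ^ (b * c)) ^ r) ∣ Nat.card K := by
        have := orderOf_dvd_natCard (⟨_, h2⟩ : K)
        rwa [Subgroup.orderOf_mk] at this
      have h6 : orderOf ((g ^ (b * c)) ^ r) ∣ r ^ a := orderOf_dvd_of_pow_eq_one h4
      have h7 : (Nat.card K).Coprime (r ^ a) := by
        apply Nat.Coprime.pow_right
        rw [Nat.coprime_comm]
        exact (Nat.Prime.coprime_iff_not_dvd h.prime).2 hrK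
      have h8 : orderOf ((g ^ (b * c)) ^ r) = 1 := Nat.eq_one_of_dvd_coprimes h7 h5 h6
      apply orderOf_eq_prime (orderOf_eq_one_iff.1 h8)
      intro h9
      have h10 : ((g ^ (b * c) : G) : G ⧸ K) = (g : G ⧸ K) := by
        rw [QuotientGroup.mk_pow]
        apply (pow_eq_self_of_mod hz ha hc)
      rw [h9] at h10
      have h11 : (g : G ⧸ K) = 1 := h10.symm
      rw [h11, orderOf_one] at hz
      exact h.prime.one_lt.ne hz
    · rw [QuotientGroup.mk_pow]
      exact pow_eq_self_of_mod hz ha hc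
  refine ⟨h.prime, ?_, ?_, ?_⟩
  · have h1 : r ∣ Nat.card K * K.index := by rw [Subgroup.card_mul_index]; exact h.dvd
    have h2 := (h.prime.dvd_mul.1 h1).resolve_left hrK
    rwa [Subgroup.index_eq_card] at h2
  · intro z hz
    obtain ⟨y, hy, rfl⟩ := key z hz
    rw [centralizer_quotient K h.prime hrK hy]
    exact (Subgroup.card_map_dvd _ _).trans (h.cent y hy)
  · intro z hz
    obtain ⟨y, hy, rfl⟩ := key z hz
    rw [centralizer_quotient K h.prime hrK hy]
    have := h.nil y hy
    exact Group.nilpotent_of_surjective _ ((QuotientGroup.mk' K).subgroupMap_surjective (centralizer ({y} : Set G)))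
where
  pow_eq_self_of_mod {Γ : Type u} [Group Γ] {z : Γ} {r a b c : ℕ} (hz : orderOf z = r) (ha : a ≠ 0)
      (hc : b * c % r ^ a = 1) : z ^ (b * c) = z := by
    have h1 : b * c = r ^ a * (b * c / r ^ a) + 1 := by
      conv_lhs => rw [← Nat.div_add_mod (b * c) (r ^ a), hc]
    obtain ⟨a', rfl⟩ := Nat.exists_eq_succ_of_ne_zero ha
    rw [h1, pow_succ, pow_succ', mul_assoc, pow_mul, ← hz, pow_orderOf_eq_one, one_pow, one_mul]

end Cfsg.Agent.H429.CS
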