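import Mathlib
import Cfsg.Agent.H429.CS.KSec

/-!
# The section of a group with perfect primes: the theorem (helper429, S3677)
-/

set_option autoImplicit false

namespace Cfsg.Agent.H429.CS

open Subgroup Cfsg

universe u

/-- **Semiregular action.** -/
theorem dvd_card_sub_one {Γ : Type u} [Group Γ] [Finite Γ] (N : Subgroup Γ) [hN : N.Normal] {D m : ℕ} (hD : D ∣ Nat.card Γ)
    (hDm : D.Coprime m) (h : ∀ x ∈ N, x ≠ 1 → Nat.card (centralizer ({x} : Set Γ)) ∣ m) : D ∣ Nat.card N - 1 := by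
  classical
  let X := {n : N // n ≠ 1}
  let act : MulAction Γ X :=
    { smul := fun g x => ⟨⟨g * x.1.1 * g⁻¹, hN.conj_mem _ x.1.2 g⟩, fun h1 => x.2 (by
        have h2 : g * x.1.1 * g⁻¹ = 1 := congrArg Subtype.val h1
        apply Subtype.ext
        show x.1.1 = 1
        have h3 : g * x.1.1 = g := by
          have := mul_inv_eq_iff_eq_mul.1 h2
          rwa [one_mul] at this
        exact mul_eq_left.1 h3)⟩
      one_smul := fun x => Subtype.ext (Subtype.ext (by
        show (1 : Γ) * x.1.1 * (1 : Γ)⁻¹ = x.1.1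
        simp))
      mul_smul := fun a b x => Subtype.ext (Subtype.ext (by
        show (a * b) * x.1.1 * (a * b)⁻¹ = a * (b * x.1.1 * b⁻¹) * a⁻¹
        group)) }
  have hstab : ∀ x : X, MulAction.stabilizer Γ x = centralizer ({x.1.1} : Set Γ) := by
    intro x
    ext g
    rw [MulAction.mem_stabilizer_iff, mem_centralizer_singleton_iff]
    constructor
    · intro h1
      have h2 : g * x.1.1 * g⁻¹ = x.1.1 := congrArg (fun z : X => z.1.1) h1
      exact mul_inv_eq_iff_eq_mul.1 h2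
    · intro h1
      apply Subtype.ext
      apply Subtype.ext
      show g * x.1.1 * g⁻¹ = x.1.1
      exact mul_inv_eq_iff_eq_mul.2 h1
  have hfin : Finite X := inferInstance
  have := Fintype.ofFinite X
  have h1 : Nat.card X = Nat.card N - 1 := by
    have := Fintype.ofFinite N
    rw [Nat.card_eq_fintype_card, Fintype.card_subtype_compl, Fintype.card_subtype_eq, Nat.card_eq_fintype_card]
  rw [← h1, Nat.card_congr (MulAction.selfEquivSigmaOrbits Γ X)]
  have hfq : Finite (MulAction.orbitRel.Quotient Γ X) := inferInstance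
  have := Fintype.ofFinite (MulAction.orbitRel.Quotient Γ X)
  rw [Nat.card_sigma]
  apply Finset.dvd_sum
  intro ω _
  rw [Nat.card_coe_set_eq, ← MulAction.index_stabilizer]
  have h2 := (MulAction.stabilizer Γ (Quotient.out ω)).card_mul_index
  have h3 : Nat.card (MulAction.stabilizer Γ (Quotient.out ω)) ∣ m := by
    rw [hstab]
    exact h _ (Quotient.out ω).1.2 (fun h4 => (Quotient.out ω).2 (Subtype.ext h4))
  exact (Nat.Coprime.coprime_dvd_right h3 hDm).dvd_of_dvd_mul_left (h2 ▸ hD)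

theorem nilpotent_of_le {Γ : Type u} [Group Γ] {A B : Subgroup Γ} (hB : Group.IsNilpotent B) (h : A ≤ B) :
    Group.IsNilpotent A := by
  have h1 : Group.IsNilpotent (inclusion h).range := inferInstance
  exact Group.nilpotent_of_mulEquiv (MonoidHom.ofInjective (inclusion_injective h)).symm

/-- the section -/
structure Sec (G : Type u) [Group G] [Finite G] (M : ℕ) (K : Subgroup G) [K.Normal] (H : Subgroup (G ⧸ K)) : Prop where
  normal : H.Normal
  simple : IsSimpleGroup H
  nab : ¬ ∀ a b : H, a * b = b * a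
  coK : (Nat.card K).Coprime M
  coH : ¬ (Nat.card H).Coprime M
  cent : centralizer (H : Set (G ⧸ K)) = ⊥
  card : Nat.card K * (H.index * Nat.card H) = Nat.card G
  out : H.index ∣ Nat.card (Cfsg.Out H)

variable {G : Type u} [Group G] [Finite G] {r m M μ : ℕ}

/-- no abelian minimal normal subgroup -/
theorem not_pGroup {Γ : Type u} [Group Γ] [Finite Γ] (h : PP Γ r m) (N : Subgroup Γ) (hN : N.Normal) (hp : IsPGroup r N)
    (hrN : N ≠ ⊥) : ∃ a, 1 ≤ a ∧ a ≤ (Nat.card Γ).factorization r ∧ ∀ D, D ∣ Nat.card Γ → D.Coprime m → D ∣ r ^ a - 1 := by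
  have := Fact.mk h.prime
  obtain ⟨a, ha⟩ := IsPGroup.iff_card.1 hp
  refine ⟨a, ?_, ?_, ?_⟩
  · by_contra h0
    have : a = 0 := by omega
    rw [this, pow_zero] at ha
    exact hrN (Subgroup.card_eq_one.1 ha)
  · rw [← h.prime.pow_dvd_iff_le_factorization Nat.card_pos.ne', ← ha]
    exact Subgroup.card_subgroup_dvd_card N
  · intro D hD hDm
    rw [← ha]
    refine dvd_card_sub_one N hD hDm fun x hx hx1 => ?_
    -- a power of `x` has order `r`
    have h1 : r ∣ orderOf x := by
      obtain ⟨b, hb⟩ := IsPGroup.iff_orderOf.1 hp ⟨x, hx⟩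
      rw [Subgroup.orderOf_mk] at hb
      rw [hb]
      apply dvd_pow_self
      rintro rfl
      rw [pow_zero] at hb
      exact hx1 (orderOf_eq_one_iff.1 hb)
    obtain ⟨k, hk⟩ := Cfsg.Agent.H364.exists_pow_orderOf x h1
    have h2 : centralizer ({x} : Set Γ) ≤ centralizer ({x ^ k} : Set Γ) := by
      intro z hz
      rw [mem_centralizer_singleton_iff] at hz ⊢
      have h3 : Commute z x := hz
      exact (h3.pow_right k).eq
    exact (Subgroup.card_dvd_of_le h2).trans (h.cent _ hk)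

/-- **The theorem on perfect primes.** -/
theorem exists_sec (hM : 1 < M) (hpp : ∀ r : ℕ, r.Prime → r ∣ M → PP G r m) (K : Subgroup G) [K.Normal]
    (hKc : (Nat.card K).Coprime M) (hKm : ∀ L : Subgroup G, L.Normal → (Nat.card L).Coprime M → L ≤ K)
    (hbig : ∀ r : ℕ, r.Prime → r ∣ M → ∀ a, 1 ≤ a → a ≤ (Nat.card G).factorization r →
      ∃ D, D ∣ Nat.card (G ⧸ K) ∧ D.Coprime m ∧ ¬ D ∣ r ^ a - 1) : ∃ H : Subgroup (G ⧸ K), Sec G M K H := by
  have hrK : ∀ r : ℕ, r.Prime → r ∣ M → ¬ r ∣ Nat.card K := by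
    intro r hr hrM h1
    exact (Nat.Prime.coprime_iff_not_dvd hr).1 (Nat.Coprime.coprime_dvd_left h1 hKc) hrM
  have hpq : ∀ r : ℕ, r.Prime → r ∣ M → PP (G ⧸ K) r m := fun r hr hrM => (hpp r hr hrM).quotient K (hrK r hr hrM)
  obtain ⟨r0, hr0, hr0M⟩ := Nat.exists_prime_and_dvd hM.ne'
  have hfac : ∀ r, (Nat.card (G ⧸ K)).factorization r ≤ (Nat.card G).factorization r := by
    intro r
    have h1 : Nat.card (G ⧸ K) ∣ Nat.card G := Subgroup.card_quotient_dvd_card K
    exact (Nat.factorization_le_iff_dvd Nat.card_pos.ne' Nat.card_pos.ne').2 h1 r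
  -- normal `r`-subgroups of the quotient
  have hno : ∀ r : ℕ, r.Prime → r ∣ M → ∀ N : Subgroup (G ⧸ K), N.Normal → IsPGroup r N → N = ⊥ := by
    intro r hr hrM N hN hp
    by_contra hne
    obtain ⟨a, h1, h2, h3⟩ := not_pGroup (hpq r hr hrM) N hN hp hne
    obtain ⟨D, h4, h5, h6⟩ := hbig r hr hrM a h1 (h2.trans (hfac r))
    exact h6 (h3 D h4 h5)
  -- minimal normal subgroups of the quotient
  have hmins : ∀ N : Subgroup (G ⧸ K), N.Normal → N ≠ ⊥ → ∃ r : ℕ, r.Prime ∧ r ∣ M ∧ r ∣ Nat.card N := by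
    intro N hN hne
    by_contra hcon
    apply hne
    apply Cfsg.Agent.H363.Master.core_quotient hKc hKm N hN
    apply Nat.coprime_of_dvd
    intro r hr h1 h2
    exact hcon ⟨r, hr, h2, h1⟩
  have hsimp : ∀ N : Subgroup (G ⧸ K), N.Normal → N ≠ ⊥ → (∀ L : Subgroup (G ⧸ K), L.Normal → L ≤ N → L = ⊥ ∨ L = N) →
      IsSimpleGroup N ∧ ¬ ∀ a b : N, a * b = b * a := by
    intro N hN hne hmin
    obtain ⟨r, hr, hrM, hrN⟩ := hmins N hN hne
    rcases Cfsg.Agent.H364.minimal_normal_cases2 N hne hmin with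
      ⟨t, ht, hpg⟩ | ⟨k, S, hk, hSN, hS, hSna, hSt, hScard, hScomm, hSsup⟩
    · exfalso
      have := Fact.mk ht
      obtain ⟨a, ha⟩ := IsPGroup.iff_card.1 hpg
      have h1 : r = t := by
        rw [ha] at hrN
        exact (Nat.prime_dvd_prime_iff_eq hr ht).1 (hr.dvd_of_dvd_pow hrN)
      subst h1
      exact hne (hno r hr hrM N hN hpg)
    · have hk1 : k = 1 := by
        by_contra hne1
        have h01 : (⟨0, hk⟩ : Fin k) ≠ ⟨1, by omega⟩ := by
          intro h; simp at h
        have := Fact.mk hr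
        obtain ⟨y, hy⟩ := exists_prime_orderOf_dvd_card' r (hSt r hr hrN ⟨0, hk⟩)
        have hy' : orderOf (y : G ⧸ K) = r := by rw [Subgroup.orderOf_coe]; exact hy
        have h2 : S ⟨1, by omega⟩ ≤ centralizer ({(y : G ⧸ K)} : Set (G ⧸ K)) := by
          intro z hz
          rw [mem_centralizer_singleton_iff]
          exact (hScomm _ _ h01 y y.2 z hz).symm.eq
        have h3 := (hpq r hr hrM).nil y hy'
        have h4 : Group.IsNilpotent (S ⟨1, by omega⟩) :=
          nilpotent_of_le h3 h2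
        have h5 := hS ⟨1, by omega⟩
        have h6 : Group.IsSolvable (S ⟨1, by omega⟩) := inferInstance
        exact hSna _ (fun a b => IsSimpleGroup.comm_iff_isSolvable.2 h6 a b)
      subst hk1
      have hNS : S 0 = N := by
        rw [← hSsup]
        exact (iSup_unique (f := S)).symm
      exact ⟨hNS ▸ hS 0, hNS ▸ hSna 0⟩
  have hnt : Nontrivial (G ⧸ K) := by
    rw [← Finite.one_lt_card_iff_nontrivial]
    exact lt_of_lt_of_le hr0.one_lt (Nat.le_of_dvd Nat.card_pos (hpq r0 hr0 hr0M).dvd)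
  obtain ⟨H, hHn, hH, hHmin⟩ := Cfsg.Agent.H363.Master.exists_minimal_normal (G ⧸ K)
  obtain ⟨hs, hna⟩ := hsimp H hHn hH hHmin
  obtain ⟨r, hr, hrM, hrH⟩ := hmins H hHn hH
  have hcent : centralizer (H : Set (G ⧸ K)) = ⊥ := by
    by_contra hC
    obtain ⟨N, hNn, hNC, hN1, hNmin⟩ :=
      Cfsg.Agent.H364.exists_minimal_normal_le (centralizer (H : Set (G ⧸ K))) inferInstance hC
    obtain ⟨hNs, hNna⟩ := hsimp N hNn hN1 hNmin
    have := Fact.mk hr
    obtain ⟨y, hy⟩ := exists_prime_orderOf_dvd_card' r hrH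
    have hy' : orderOf (y : G ⧸ K) = r := by rw [Subgroup.orderOf_coe]; exact hy
    have h2 : N ≤ centralizer ({(y : G ⧸ K)} : Set (G ⧸ K)) := hNC.trans (centralizer_le (by simp))
    have h4 : Group.IsNilpotent N := nilpotent_of_le ((hpq r hr hrM).nil y hy') h2
    have h6 : Group.IsSolvable N := inferInstance
    exact hNna (fun a b => IsSimpleGroup.comm_iff_isSolvable.2 h6 a b)
  refine ⟨H, hHn, hs, hna, hKc, ?_, hcent, ?_, Cfsg.Agent.H364.index_dvd_out H hna hcent⟩
  · intro h1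
    exact (Nat.Prime.coprime_iff_not_dvd hr).1 (Nat.Coprime.coprime_dvd_left hrH h1) hrM
  · rw [mul_comm H.index, Subgroup.card_mul_index, ← Subgroup.index_eq_card, Subgroup.card_mul_index]

end Cfsg.Agent.H429.CS
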