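import Mathlib

/-!
# Elements of prime order `r` in `A_k` (helper429, S3677)

`exists_comm`: if `r + 4 ≤ k`, some element of order `r` commutes with an involution.
`exists_fus`: if `r ≤ k`, some element `y` of order `r` is conjugate to at least `(r - 1) / 2` of its powers.
-/

set_option autoImplicit false

namespace Cfsg.Agent.H429.AltFus

open Equiv Equiv.Perm

theorem exists_perm {k : ℕ} {m : Multiset ℕ} (h1 : m.sum ≤ k) (h2 : ∀ a ∈ m, 2 ≤ a) :
    ∃ g : Perm (Fin k), g.cycleType = m :=
  (Equiv.Perm.exists_with_cycleType_iff (Fin k)).2 ⟨by rwa [Fintype.card_fin], h2⟩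

theorem exists_comm {k r : ℕ} (hr : r.Prime) (hr2 : r ≠ 2) (h : r + 4 ≤ k) :
    ∃ y : alternatingGroup (Fin k), orderOf y = r ∧ ∃ z : alternatingGroup (Fin k), orderOf z = 2 ∧ Commute y z := by
  obtain ⟨g, hg⟩ := exists_perm (k := k) (m := {r, 2, 2}) (by simp; omega) (by
    intro a ha
    simp only [Multiset.insert_eq_cons, Multiset.mem_cons, Multiset.mem_singleton] at ha
    rcases ha with rfl | rfl | rfl
    · exact hr.two_le
    · exact le_rfl
    · exact le_rfl)
  have hodd : Odd r := hr.odd_of_ne_two hr2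
  have hs : sign g = 1 := by
    rw [sign_of_cycleType, hg]
    simp only [Multiset.insert_eq_cons, Multiset.sum_cons, Multiset.sum_singleton, Multiset.card_cons,
      Multiset.card_singleton]
    obtain ⟨c, rfl⟩ := hodd
    exact Even.neg_one_pow ⟨c + 4, by omega⟩
  have ho : orderOf g = 2 * r := by
    rw [← lcm_cycleType, hg]
    simp only [Multiset.insert_eq_cons, Multiset.lcm_cons, Multiset.lcm_singleton, normalize_eq]
    rw [lcm_same, normalize_eq]
    show Nat.lcm r 2 = 2 * r
    rw [Nat.Coprime.lcm_eq_mul (Nat.coprime_two_right.2 hodd), mul_comm]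
  let g' : alternatingGroup (Fin k) := ⟨g, mem_alternatingGroup.2 hs⟩
  have ho' : orderOf g' = 2 * r := by rw [← ho]; exact Subgroup.orderOf_mk g _
  refine ⟨g' ^ 2, ?_, g' ^ r, ?_, (Commute.refl g').pow_pow _ _⟩
  · rw [orderOf_pow_of_dvd (by norm_num) (by rw [ho']; exact dvd_mul_right _ _), ho']
    exact Nat.mul_div_cancel_left _ (by norm_num)
  · rw [orderOf_pow_of_dvd hr.ne_zero (by rw [ho']; exact dvd_mul_left _ _), ho']
    exact Nat.mul_div_cancel _ hr.pos

theorem exists_fus {k r : ℕ} (hr : r.Prime) (hr2 : r ≠ 2) (h : r ≤ k) :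
    ∃ y : alternatingGroup (Fin k), orderOf y = r ∧
      ∀ j : ℕ, ¬ r ∣ j → IsConj y (y ^ (j ^ 2)) := by
  obtain ⟨g, hg⟩ := exists_perm (k := k) (m := {r}) (by simpa using h) (by
    intro a ha
    rw [Multiset.mem_singleton] at ha
    rw [ha]; exact hr.two_le)
  have hodd : Odd r := hr.odd_of_ne_two hr2
  have hs : sign g = 1 := by
    rw [sign_of_cycleType, hg]
    simp only [Multiset.sum_singleton, Multiset.card_singleton]
    exact (hodd.add_odd odd_one).neg_one_pow
  have ho : orderOf g = r := by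
    rw [← lcm_cycleType, hg, Multiset.lcm_singleton, normalize_eq]
  let g' : alternatingGroup (Fin k) := ⟨g, mem_alternatingGroup.2 hs⟩
  have ho' : orderOf g' = r := by rw [← ho]; exact Subgroup.orderOf_mk g _
  refine ⟨g', ho', fun j hj => ?_⟩
  have hcop : Nat.Coprime (orderOf g) j := by rw [ho]; exact (Nat.Prime.coprime_iff_not_dvd hr).2 hj
  have hct : (g ^ j).cycleType = g.cycleType := by
    have hgc : g.IsCycle := by
      rw [← card_cycleType_eq_one, hg, Multiset.card_singleton]
    have h1 : (g ^ j).IsCycle := by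
      rw [hgc.pow_iff]
      exact hcop.symm
    rw [h1.cycleType, hgc.cycleType, support_pow_coprime hcop.symm]
  have hconj : IsConj g (g ^ j) := isConj_iff_cycleType_eq.2 hct.symm
  obtain ⟨c, hc⟩ := isConj_iff.1 hconj
  have h2 : ∀ i : ℕ, c * g ^ i * c⁻¹ = g ^ (j * i) := by
    intro i
    rw [← conj_pow, hc, pow_mul]
  have h3 : (c * c) * g * (c * c)⁻¹ = g ^ (j ^ 2) := by
    calc (c * c) * g * (c * c)⁻¹ = c * (c * g * c⁻¹) * c⁻¹ := by group
      _ = g ^ (j ^ 2) := by rw [hc, h2, sq]
  rw [isConj_iff]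
  refine ⟨⟨c * c, mem_alternatingGroup.2 ?_⟩, Subtype.ext h3⟩
  rw [Equiv.Perm.sign_mul]
  exact Int.units_mul_self _

end Cfsg.Agent.H429.AltFus
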