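import Mathlib
import Cfsg.Agent.H221.CS.Basic

/-!
# The arithmetic of the alternating case (helper429, S3677)
-/

set_option autoImplicit false

namespace Cfsg.Agent.H429.AltNum

open Cfsg.Agent.H902.Lte Cfsg.Agent.H902.Art
open Cfsg.Agent.H364.SpVal Cfsg.Agent.H364.SpIneq Cfsg.Agent.H364.SpPrim
  Cfsg.Agent.H364.SpTot Cfsg.Agent.H364.SpSmall

/-- the start of the range of `q` -/
def l1 : List ℕ := [54, 453, 36, 76, 23, 45, 17, 27, 13, 18, 10, 13, 9, 11, 8, 9, 7, 8, 6, 7, 6, 6, 5, 6, 5, 5, 5, 5, 4, 5, 4, 4, 4, 4, 4, 4, 4, 4, 4, 4, 4, 4, 3, 4]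

def q1 (n : ℕ) : ℕ := if n < 5 then 2 else (l1[n - 5]?).getD (if n < 107 then 3 else 2)

/-- lower bound for `ss n` -/
def sl (n : ℕ) : ℕ := (7 * n ^ 2 - 6 * n + 35) / 36

/-- factorial by a fold -/
def fa (n : ℕ) : ℕ := (List.range n).foldl (fun a i => a * (i + 1)) 1

def c1 (n : ℕ) : Bool := decide (2 * (lam n * fa (4 * n + 4)) < (q1 n ^ 2 - 1) ^ sl n * q1 n ^ cn n) && decide (2 ≤ q1 n)

def c2 (n q : ℕ) : Bool := good n q (te n q) && (2 * fa (4 * n + 4)) % (q ^ cn n * te n q) != 0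

theorem c1_all : ∀ n ∈ List.range 150, n < 5 ∨ c1 n = true := by
  decide +kernel

theorem c2_all : ∀ n ∈ List.range 150, n < 5 ∨ ∀ q ∈ List.range (q1 n), q < 2 ∨ c2 n q = true := by
  decide +kernel

theorem fa_eq (n : ℕ) : fa n = n.factorial := by
  induction n with
  | zero => rfl
  | succ n ih =>
    rw [fa] at ih ⊢
    rw [List.range_succ, List.foldl_append, ih, List.foldl_cons, List.foldl_nil, Nat.factorial_succ, mul_comm]

theorem pow26 {n : ℕ} (hn : 150 ≤ n) : n ^ 26 ≤ 3 ^ n := by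
  induction n, hn using Nat.le_induction with
  | base => norm_num
  | succ n hn ih =>
    have h1 : (n + 1) ^ 26 * 150 ^ 26 ≤ 3 * n ^ 26 * 150 ^ 26 := by
      calc (n + 1) ^ 26 * 150 ^ 26 = ((n + 1) * 150) ^ 26 := by rw [mul_pow]
        _ ≤ (151 * n) ^ 26 := Nat.pow_le_pow_left (by omega) 26
        _ = 151 ^ 26 * n ^ 26 := by rw [mul_pow]
        _ ≤ (3 * 150 ^ 26) * n ^ 26 := Nat.mul_le_mul_right _ (by norm_num)
        _ = _ := by ring
    have h2 : (n + 1) ^ 26 ≤ 3 * n ^ 26 := Nat.le_of_mul_le_mul_right h1 (by norm_num)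
    calc (n + 1) ^ 26 ≤ 3 * n ^ 26 := h2
      _ ≤ 3 * 3 ^ n := Nat.mul_le_mul_left 3 ih
      _ = 3 ^ (n + 1) := by ring

theorem bern (a m : ℕ) : a ^ m + m * a ^ (m - 1) ≤ (a + 1) ^ m := by
  induction m with
  | zero => simp
  | succ m ih =>
    rw [pow_succ (a + 1)]
    have h1 : (a ^ m + m * a ^ (m - 1)) * (a + 1) ≤ (a + 1) ^ m * (a + 1) := Nat.mul_le_mul_right _ ih
    refine le_trans ?_ h1
    rw [Nat.add_sub_cancel]
    have h2 : m * a ^ (m - 1) * a = m * a ^ m := by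
      rcases m with _ | m
      · simp
      · rw [Nat.add_sub_cancel, pow_succ]; ring
    calc a ^ (m + 1) + (m + 1) * a ^ m = a ^ m * a + m * a ^ m + a ^ m := by ring
      _ = a ^ m * a + m * a ^ (m - 1) * a + a ^ m := by rw [h2]
      _ ≤ a ^ m * a + m * a ^ (m - 1) * a + a ^ m + m * a ^ (m - 1) := Nat.le_add_right _ _
      _ = _ := by ring

theorem fac_le (m : ℕ) : 2 ^ m * m.factorial ≤ (m + 1) ^ m := by
  induction m with
  | zero => simp
  | succ m ih =>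
    have h1 := bern (m + 1) (m + 1)
    rw [Nat.add_sub_cancel] at h1
    calc 2 ^ (m + 1) * (m + 1).factorial = 2 * (m + 1) * (2 ^ m * m.factorial) := by
          rw [Nat.factorial_succ]; ring
      _ ≤ 2 * (m + 1) * (m + 1) ^ m := Nat.mul_le_mul_left _ ih
      _ = (m + 1) ^ (m + 1) + (m + 1) * (m + 1) ^ m := by ring
      _ ≤ _ := h1

theorem large {n : ℕ} (hn : 150 ≤ n) : 2 * (lam n * (4 * n + 4).factorial) < 3 ^ ss n := by
  have hl := lam_le n
  have hs := ss_bound n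
  have hf := fac_le (4 * n + 4)
  generalize lam n = L at *
  generalize ss n = s at *
  generalize hF : (4 * n + 4).factorial = F at *
  have h1 : F ^ 26 ≤ 3 ^ ((n + 17) * (4 * n + 4)) := by
    have h2 : (2 ^ 26) ^ (4 * n + 4) * F ^ 26 ≤ ((4 * n + 5) ^ 26) ^ (4 * n + 4) := by
      calc (2 ^ 26) ^ (4 * n + 4) * F ^ 26 = (2 ^ (4 * n + 4) * F) ^ 26 := by
            rw [mul_pow, ← pow_mul, ← pow_mul, mul_comm 26]
        _ ≤ ((4 * n + 4 + 1) ^ (4 * n + 4)) ^ 26 := Nat.pow_le_pow_left hf 26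
        _ = _ := by rw [← pow_mul, ← pow_mul, mul_comm 26]
    have h3 : (4 * n + 5) ^ 26 ≤ 2 ^ 26 * 3 ^ (n + 17) := by
      have h4 : (4 * n + 5) ^ 26 * 150 ^ 26 ≤ 2 ^ 26 * 3 ^ (n + 17) * 150 ^ 26 := by
        calc (4 * n + 5) ^ 26 * 150 ^ 26 = ((4 * n + 5) * 150) ^ 26 := by rw [mul_pow]
          _ ≤ (605 * n) ^ 26 := Nat.pow_le_pow_left (by omega) 26
          _ = 605 ^ 26 * n ^ 26 := by rw [mul_pow]
          _ ≤ (2 ^ 26 * 3 ^ 17 * 150 ^ 26) * 3 ^ n := Nat.mul_le_mul (by norm_num) (pow26 hn)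
          _ = _ := by ring
      exact Nat.le_of_mul_le_mul_right h4 (by norm_num)
    have h5 : (2 ^ 26) ^ (4 * n + 4) * F ^ 26 ≤ (2 ^ 26) ^ (4 * n + 4) * 3 ^ ((n + 17) * (4 * n + 4)) := by
      refine h2.trans ?_
      calc ((4 * n + 5) ^ 26) ^ (4 * n + 4) ≤ (2 ^ 26 * 3 ^ (n + 17)) ^ (4 * n + 4) := Nat.pow_le_pow_left h3 _
        _ = _ := by rw [mul_pow, ← pow_mul 3]
    exact Nat.le_of_mul_le_mul_left h5 (by positivity)
  have h2 : L ^ 26 ≤ 3 ^ (n * (n - n / 2)) := by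
    calc L ^ 26 ≤ (n ^ (n - n / 2)) ^ 26 := Nat.pow_le_pow_left hl 26
      _ = (n ^ 26) ^ (n - n / 2) := by rw [← pow_mul, ← pow_mul, mul_comm]
      _ ≤ (3 ^ n) ^ (n - n / 2) := Nat.pow_le_pow_left (pow26 hn) _
      _ = _ := by rw [← pow_mul]
  have h3 : 17 + n * (n - n / 2) + (n + 17) * (4 * n + 4) < 26 * s := by
    have h5 : 2 * (n * (n - n / 2)) ≤ n * (n + 1) := by
      calc 2 * (n * (n - n / 2)) = n * (2 * (n - n / 2)) := by ring
        _ ≤ _ := Nat.mul_le_mul_left n (by omega)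
    nlinarith
  refine lt_of_pow_lt_pow_left₀ 26 (Nat.zero_le _) ?_
  calc (2 * (L * F)) ^ 26 = 2 ^ 26 * (L ^ 26 * F ^ 26) := by rw [mul_pow, mul_pow]
    _ ≤ 3 ^ 17 * (3 ^ (n * (n - n / 2)) * 3 ^ ((n + 17) * (4 * n + 4))) :=
        Nat.mul_le_mul (by norm_num) (Nat.mul_le_mul h2 h1)
    _ = 3 ^ (17 + n * (n - n / 2) + (n + 17) * (4 * n + 4)) := by rw [← pow_add, ← pow_add, add_assoc]
    _ < 3 ^ (26 * s) := Nat.pow_lt_pow_right (by norm_num) h3
    _ = (3 ^ s) ^ 26 := by rw [← pow_mul, mul_comm]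

theorem sl_le {n : ℕ} (hn : 1 ≤ n) : sl n ≤ ss n := by
  have h := ss_bound n
  rw [sl]
  have h1 : 6 * n ≤ 7 * n ^ 2 := by nlinarith
  omega

theorem key {n q : ℕ} (hn : 5 ≤ n) (hq : 2 ≤ q) (h : n < 150 → q1 n ≤ q) :
    2 * (lam n * (4 * n + 4).factorial) < (q ^ 2 - 1) ^ ss n * q ^ cn n := by
  have hq2 : 3 ≤ q ^ 2 - 1 := by
    have : 2 * 2 ≤ q * q := Nat.mul_le_mul hq hq
    rw [sq]; omega
  rcases Nat.lt_or_ge n 150 with h1 | h1
  · rcases c1_all n (List.mem_range.2 h1) with h2 | h2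
    · omega
    · rw [c1, Bool.and_eq_true, decide_eq_true_eq, decide_eq_true_eq, fa_eq] at h2
      have h3 := h h1
      refine h2.1.trans_le ?_
      apply Nat.mul_le_mul
      · calc (q1 n ^ 2 - 1) ^ sl n ≤ (q ^ 2 - 1) ^ sl n :=
              Nat.pow_le_pow_left (Nat.sub_le_sub_right (Nat.pow_le_pow_left h3 2) 1) _
          _ ≤ _ := Nat.pow_le_pow_right (by omega) (sl_le (by omega))
      · exact Nat.pow_le_pow_left h3 _
  · refine (large h1).trans_le ?_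
    calc 3 ^ ss n ≤ (q ^ 2 - 1) ^ ss n := Nat.pow_le_pow_left hq2 _
      _ ≤ _ := Nat.le_mul_of_pos_right _ (pow_pos (by omega) _)

/-- **The arithmetic for `n ≥ 5`.** -/
theorem arith {n q I MS : ℕ} (hn : 5 ≤ n) (hq : 2 ≤ q) (h : Fr n q I MS) (hd : I * MS ∣ 2 * (4 * n + 4).factorial) :
    False := by
  have hpos : 0 < 2 * (4 * n + 4).factorial := Nat.mul_pos (by norm_num) (Nat.factorial_pos _)
  by_cases hc : n < 150 → q1 n ≤ q
  · have h1 := (h.gen hq (by omega)).trans hd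
    have h2 := Nat.le_of_dvd hpos h1
    have h3 := tt_ge (n := n) (Q := q ^ 2) (by nlinarith)
    have h4 := key hn hq hc
    have h5 : (q ^ 2 - 1) ^ ss n * q ^ cn n ≤ 2 * (4 * n + 4).factorial * lam n := by
      calc (q ^ 2 - 1) ^ ss n * q ^ cn n ≤ tt n (q ^ 2) * lam n * q ^ cn n := Nat.mul_le_mul_right _ h3
        _ = (q ^ cn n * tt n (q ^ 2)) * lam n := by ring
        _ ≤ _ := Nat.mul_le_mul_right _ h2
    have h6 : 2 * (4 * n + 4).factorial * lam n = 2 * (lam n * (4 * n + 4).factorial) := by ring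
    omega
  · push Not at hc
    obtain ⟨h1, h2⟩ := hc
    rcases c2_all n (List.mem_range.2 h1) with h3 | h3
    · omega
    · rcases h3 q (List.mem_range.2 h2) with h4 | h4
      · omega
      · rw [c2, Bool.and_eq_true, bne_iff_ne, fa_eq] at h4
        exact h4.2 (Nat.mod_eq_zero_of_dvd ((h.good hq h4.1).trans hd))

theorem AA_mono {n q q' : ℕ} (h : q ≤ q') : AA n q ≤ AA n q' := by
  rw [AA, AA]
  exact Finset.prod_le_prod' fun i _ => Nat.sub_le_sub_right (Nat.pow_le_pow_left h _) 1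

def c3 (n q : ℕ) : Bool := (Nat.gcd 2 (q - 1) * (2 * fa (4 * n + 4))) % AA n q != 0

theorem c3_all : (∀ q ∈ List.range 15, q < 4 ∨ c3 3 q = true) ∧ (∀ q ∈ List.range 9, q < 3 ∨ c3 4 q = true) := by
  decide +kernel

theorem c3_large : 2 * (2 * fa 16) < AA 3 15 ∧ 2 * (2 * fa 20) < AA 4 9 := by
  decide +kernel

/-- **The arithmetic for `n = 3, 4`.** -/
theorem arith_small {n q T : ℕ} (hn : n = 3 ∨ n = 4) (hq : 2 ≤ q) (h2 : ¬ (n = 3 ∧ q = 2)) (h : AA n q ∣ Nat.gcd 2 (q - 1) * T)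
    (hd : T ∣ 2 * (4 * n + 4).factorial) : (n = 3 ∧ q = 3) ∨ (n = 4 ∧ q = 2) := by
  have h1 : AA n q ∣ Nat.gcd 2 (q - 1) * (2 * fa (4 * n + 4)) := by
    rw [fa_eq]
    exact h.trans (Nat.mul_dvd_mul_left _ hd)
  have h3 : AA n q ≤ 2 * (2 * fa (4 * n + 4)) := by
    refine (Nat.le_of_dvd ?_ h1).trans (Nat.mul_le_mul_right _ (Nat.gcd_le_left _ (by norm_num)))
    rw [fa_eq]
    exact Nat.mul_pos (Nat.gcd_pos_of_pos_left _ (by norm_num)) (Nat.mul_pos (by norm_num) (Nat.factorial_pos _))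
  have h4 : ¬ c3 n q = true := by
    rw [c3, bne_iff_ne, not_not]
    exact Nat.mod_eq_zero_of_dvd h1
  obtain ⟨h5, h6⟩ := c3_all
  obtain ⟨h7, h8⟩ := c3_large
  rcases hn with rfl | rfl
  · have hlt : q < 15 := by
      by_contra hcon
      have h9 := AA_mono (n := 3) (not_lt.1 hcon)
      have h10 : AA 3 q ≤ 2 * (2 * fa 16) := h3
      omega
    rcases h5 q (List.mem_range.2 hlt) with h9 | h9
    · left
      refine ⟨rfl, ?_⟩
      have : q ≠ 2 := fun h => h2 ⟨rfl, h⟩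
      omega
    · exact absurd h9 h4
  · have hlt : q < 9 := by
      by_contra hcon
      have h9 := AA_mono (n := 4) (not_lt.1 hcon)
      have h10 : AA 4 q ≤ 2 * (2 * fa 20) := h3
      omega
    rcases h6 q (List.mem_range.2 hlt) with h9 | h9
    · right
      exact ⟨rfl, by omega⟩
    · exact absurd h9 h4

end Cfsg.Agent.H429.AltNum
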