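import Mathlib
import Cfsg.Agent.H429.CS.KMain
import Cfsg.Agent.H431.CS.Defs
import Cfsg.Agent.H402.CS.One

/-!
# Perfect primes from the lattices (helper429, S3677)
-/

set_option autoImplicit false

namespace Cfsg.Agent.H429.CS

open Subgroup Cfsg Cfsg.Agent.H431.CS Cfsg.Agent.H364 Cfsg.Agent.H370.AAM

universe u v

variable {S : Type v} [Group S] [Finite S] {G : Type u} [Group G] [Finite G] {p r m M μ : ℕ}

/-- the structure of helper402 -/
theorem perf_of_lat (h : Lat S p r m) (hr : r.Prime) (hp : p.Prime) (hrp : r ≠ p) (hG : Same G S) :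
    Cfsg.Agent.H402.CS.One.Perf G r p m := by
  refine ⟨hr, hp, hrp, hG.card ▸ h.rS, h.toLatW.noEdge hr hp hrp hG, ?_, ?_⟩
  · intro y hy
    exact h.card_cent hr hp hrp hG (hy ▸ dvd_rfl)
  · intro c hc hrc hcm
    by_cases h1 : c = Nat.card S
    · obtain ⟨x, hx⟩ := h.mem
      have h2 : m ∣ Nat.card S := by
        rw [← hx]
        exact Subgroup.card_subgroup_dvd_card _
      exact Nat.dvd_antisymm hcm (h1 ▸ h2)
    · have h2 : c ∈ Co S := by
        rw [← hG.co]
        exact hc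
      exact h.one c h2 h1 hrc (fun h3 => h.pm (h3.trans hcm))

theorem PP.of_lat (h : Lat S p r m) (hr : r.Prime) (hp : p.Prime) (hrp : r ≠ p) (hG : Same G S) : PP G r m := by
  refine ⟨hr, hG.card ▸ h.rS, ?_, ?_⟩
  · intro y hy
    rw [h.card_cent hr hp hrp hG (hy ▸ dvd_rfl)]
  · intro y hy
    exact (perf_of_lat h hr hp hrp hG).nilp hy

/-- the least class size, from the set of centralizer orders -/
theorem min_of_co (hG : Same G S) (hZ : center G = ⊥) (hμ : ∀ c ∈ Co S, c ≠ Nat.card S → μ * c ≤ Nat.card S) (x : G)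
    (hx : x ≠ 1) : μ ≤ (centralizer ({x} : Set G)).index := by
  have h1 : Nat.card (centralizer ({x} : Set G)) ≠ Nat.card S := by
    intro h2
    rw [← hG.card] at h2
    have h3 : centralizer ({x} : Set G) = ⊤ := Subgroup.eq_top_of_card_eq _ h2
    have h4 : x ∈ center G := by
      rw [mem_center_iff]
      intro g
      exact mem_centralizer_singleton_iff.1 (h3 ▸ mem_top g)
    rw [hZ, mem_bot] at h4
    exact hx h4
  have h2 := hμ _ (hG.mem x) h1
  have h3 := (centralizer ({x} : Set G)).card_mul_index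
  rw [← hG.card, ← h3, mul_comm] at h2
  exact Nat.le_of_mul_le_mul_left h2 Nat.card_pos

/-- two coprime centralizer orders: the centre is trivial -/
theorem center_eq_bot (hG : Same G S) (h : ∀ t : ℕ, t.Prime → ∃ c ∈ Co S, ¬ t ∣ c) : center G = ⊥ := by
  by_contra hne
  have h1 : Nat.card (center G) ≠ 1 := fun h => hne (Subgroup.card_eq_one.1 h)
  obtain ⟨t, ht, htZ⟩ := Nat.exists_prime_and_dvd h1
  obtain ⟨c, hc, htc⟩ := h t ht
  obtain ⟨g, hg⟩ := hG.exists_of_mem hc
  apply htc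
  rw [← hg]
  refine htZ.trans (Subgroup.card_dvd_of_le ?_)
  intro z hz
  rw [mem_centralizer_singleton_iff]
  exact (mem_center_iff.1 hz g).symm

/-- a normal subgroup of order prime to the order of an element with nilpotent centralizer is solvable
(`H429.CS.solv_of_known` in `KStep.lean`: follows from `H566.KnownAll`, the classification) -/
def Solv : Prop :=
  ∀ (G : Type u) [Group G] [Finite G] (K : Subgroup G) [K.Normal] (y : G), (Nat.card (zpowers y)).Coprime (Nat.card K) →
    Group.IsNilpotent (centralizer ({y} : Set G)) → Group.IsSolvable K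

omit [Finite S] in
theorem PP.solv (hS : Solv.{u}) (h : PP G r m) (K : Subgroup G) [K.Normal] (hrK : ¬ r ∣ Nat.card K) : Group.IsSolvable K := by
  have := Fact.mk h.prime
  obtain ⟨y, hy⟩ := exists_prime_orderOf_dvd_card' r h.dvd
  refine hS G K y ?_ (h.nil y hy)
  rw [Nat.card_zpowers, hy]
  exact (Nat.Prime.coprime_iff_not_dvd h.prime).2 hrK

/-- **The theorem on perfect primes**, for groups with the order and the class sizes of `S`.
`m` is the common centralizer order of the elements of order `r`, for all prime divisors `r` of `M`; `μ` is at most the least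
class size and at least the `l`-part of `|S|` for all prime divisors `l` of `m`. -/
theorem main (hS : Solv.{u}) (hG : Same G S) (hp : p.Prime) (hM : 1 < M)
    (hlat : ∀ r : ℕ, r.Prime → r ∣ M → r ≠ p ∧ Lat S p r m)
    (hμ : ∀ x : G, x ≠ 1 → μ ≤ (centralizer ({x} : Set G)).index)
    (hl : ∀ l : ℕ, l.Prime → l ∣ m → l ^ (Nat.card S).factorization l ≤ μ)
    (hbig : ∀ N : ℕ, N ∣ Nat.card S → N.Coprime M →
      (∀ t : ℕ, t.Prime → t ∣ N → t ∣ m ∨ μ < t ^ (Nat.card S).factorization t) →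
      ∀ r : ℕ, r.Prime → r ∣ M → ∀ a, 1 ≤ a → a ≤ (Nat.card S).factorization r →
      ∃ D, D ∣ Nat.card S / N ∧ D.Coprime m ∧ ¬ D ∣ r ^ a - 1) :
    ∃ (K : Subgroup G) (_ : K.Normal) (H : Subgroup (G ⧸ K)), Sec G M K H ∧
      (∀ t : ℕ, t.Prime → t ∣ Nat.card K → t ∣ m ∨ μ < t ^ (Nat.card S).factorization t) ∧
      (∀ r : ℕ, r.Prime → r ∣ M → r ^ (Nat.card S).factorization r ∣ p ^ (Nat.card K).factorization p - 1) := by
  have hpp : ∀ r : ℕ, r.Prime → r ∣ M → PP G r m := fun r hr hrM =>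
    PP.of_lat (hlat r hr hrM).2 hr hp (hlat r hr hrM).1 hG
  obtain ⟨K, hKn, hKc, hKm⟩ := Cfsg.Agent.H363.Master.exists_core G M
  obtain ⟨r0, hr0, hr0M⟩ := Nat.exists_prime_and_dvd hM.ne'
  have hrK : ∀ r : ℕ, r.Prime → r ∣ M → ¬ r ∣ Nat.card K := by
    intro r hr hrM h1
    exact (Nat.Prime.coprime_iff_not_dvd hr).1 (Nat.Coprime.coprime_dvd_left h1 hKc) hrM
  have hKt : ∀ t : ℕ, t.Prime → t ∣ Nat.card K → t ∣ m ∨ μ < t ^ (Nat.card S).factorization t := by
    intro t ht htK
    by_contra hcon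
    rw [not_or, not_lt] at hcon
    refine (hpp r0 hr0 hr0M).not_dvd' K (hrK r0 hr0 hr0M) ((hpp r0 hr0 hr0M).solv hS K (hrK r0 hr0 hr0M)) ht hcon.1 ?_ htK
    intro l hlp hlm N hN hNp
    refine eq_bot_of_le hlp hμ ?_ N hN hNp
    rw [hG.card]
    rcases hlm with h1 | rfl
    · exact hl l hlp h1
    · exact hcon.2
  obtain ⟨H, hH⟩ := exists_sec hM hpp K hKc hKm (by
    intro r hr hrM a ha1 ha2
    have h1 := hbig (Nat.card K) (hG.card ▸ Subgroup.card_subgroup_dvd_card K) hKc hKt r hr hrM a ha1 (hG.card ▸ ha2)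
    have h2 : Nat.card (G ⧸ K) = Nat.card S / Nat.card K := by
      rw [← hG.card, ← Subgroup.card_mul_index K, Nat.mul_div_cancel_left _ Nat.card_pos, Subgroup.index_eq_card]
    rwa [h2])
  refine ⟨K, hKn, H, hH, hKt, ?_⟩
  intro r hr hrM
  have h1 := congr_one K hr hp (hlat r hr hrM).1 (hrK r hr hrM) ((hlat r hr hrM).2.toLatW.noEdge hr hp (hlat r hr hrM).1 hG)
  rwa [hG.card] at h1

end Cfsg.Agent.H429.CS
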